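import Cfsg.Agent.H11.SimDSpec

/-! # S3694, chapter D: job `HF` (the calculus of the hermitian form) -/

set_option autoImplicit false

namespace H24.SimD

open Cfsg Polynomial

theorem exists_ne {F : Type} [Field F] [Fintype F] {q : ℕ} (h : Fintype.card F = q ^ 2)
    (hq : 2 ≤ q) (c : F) : ∃ t : F, t ^ q + c * t ≠ 0 := by
  by_contra hn
  push Not at hn
  have hd : (X ^ q + C c * X : F[X]).natDegree = q := by
    rw [natDegree_add_eq_left_of_natDegree_lt, natDegree_X_pow]
    rw [natDegree_X_pow]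
    exact lt_of_le_of_lt ((natDegree_C_mul_le _ _).trans natDegree_X_le) (by omega)
  have h0 : (X ^ q + C c * X : F[X]) = 0 :=
    eq_zero_of_natDegree_lt_card_of_eval_eq_zero _ (f := id) Function.injective_id
      (fun t => by simpa using hn t) (by rw [hd, h]; nlinarith)
  rw [h0, natDegree_zero] at hd
  omega

theorem jobD_HF : H11.SimD.JobHF := by
  intro n F _ _ q h
  obtain ⟨p, hp⟩ := CharP.exists F
  obtain ⟨m, pp, hm⟩ := FiniteField.card F p
  haveI : Fact p.Prime := ⟨pp⟩
  obtain ⟨k, -, hk⟩ := (Nat.dvd_prime_pow pp).mp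
    (show q ∣ p ^ (m : ℕ) by rw [← hm, h]; exact dvd_pow_self q two_ne_zero)
  have hq : 2 ≤ q := by
    have := Fintype.one_lt_card (α := F)
    rw [h] at this
    nlinarith
  have add : ∀ a b : F, (a + b) ^ q = a ^ q + b ^ q := fun a b => by
    rw [hk]; exact add_pow_char_pow a b p k
  have sub : ∀ a b : F, (a - b) ^ q = a ^ q - b ^ q := fun a b => by
    rw [hk]; exact sub_pow_char_pow a b k
  have sum : ∀ f : Fin n → F, (∑ i, f i) ^ q = ∑ i, f i ^ q := fun f => by
    rw [hk]; exact sum_pow_char_pow p k _ f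
  have inv : ∀ a : F, (a ^ q) ^ q = a := fun a => by
    rw [← pow_mul, ← sq, ← h, FiniteField.pow_card]
  obtain ⟨l, hl⟩ : ∃ l : F, l ^ q ≠ l := by
    obtain ⟨t, ht⟩ := exists_ne h hq (-1)
    exact ⟨t, fun e => ht (by rw [e]; ring)⟩
  have l0 : l ≠ 0 := by
    rintro rfl
    exact hl (zero_pow (by omega))
  refine ⟨add, inv, fun x y => ?_, fun a x y z => ⟨?_, ?_, ?_, ?_⟩, fun a ha => ?_,
    ⟨l - l ^ q, sub_ne_zero.mpr hl.symm, by rw [sub, inv]; ring⟩, ⟨l, hl⟩, ⟨l, l0, hl, ?_⟩,
    fun Y x hx => ?_⟩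
  · simp only [hermForm, sum, mul_pow, inv]
    exact Finset.sum_congr rfl fun i _ => mul_comm _ _
  · simp only [hermForm, Pi.add_apply, add_mul, Finset.sum_add_distrib]
  · simp only [hermForm, Pi.add_apply, add, mul_add, Finset.sum_add_distrib]
  · simp only [hermForm, Pi.smul_apply, smul_eq_mul, Finset.mul_sum, mul_assoc]
  · simp only [hermForm, Pi.smul_apply, smul_eq_mul, Finset.mul_sum, mul_pow]
    exact Finset.sum_congr rfl fun i _ => by ring
  · obtain ⟨t, ht⟩ := exists_ne h hq 1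
    rw [one_mul] at ht
    refine ⟨a * t / (t ^ q + t), ?_⟩
    rw [div_pow, mul_pow, ha, add, inv, add_comm t (t ^ q)]
    field_simp
    ring
  · have : l ^ q ≠ 0 := pow_ne_zero _ l0
    rw [mul_pow, inv, inv_pow]
    field_simp
  · obtain ⟨φ, h1, h2⟩ := Y.exists_dual_map_eq_bot_of_notMem hx inferInstance
    have key : ∀ z : Fin n → F,
        hermForm n F q z (fun i => ((φ x)⁻¹ * φ (Pi.single i 1)) ^ q) = (φ x)⁻¹ * φ z := fun z => by
      simp only [hermForm, inv]
      conv_rhs => rw [← Finset.univ_sum_single z, map_sum, Finset.mul_sum]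
      refine Finset.sum_congr rfl fun i _ => ?_
      rw [show (Pi.single i (z i) : Fin n → F) = z i • Pi.single i 1 by
        rw [← Pi.single_smul', smul_eq_mul, mul_one], map_smul, smul_eq_mul]
      ring
    refine ⟨_, by rw [key, inv_mul_cancel₀ h1], fun z hz => ?_⟩
    have : φ z = 0 := (Submodule.eq_bot_iff _).mp h2 _ (Submodule.mem_map_of_mem hz)
    rw [key, this, mul_zero]

end H24.SimD
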