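import Cfsg.Agent.H91.AHSpec
import Cfsg.Agent.H59.Amb
import Cfsg.Agent.H98.Sylow
import Cfsg.Agent.S0112
import Cfsg.Agent.S0113

/-! Tower AH, slots C2, C4, KA. -/

set_option autoImplicit false

namespace H24.AH

open H33.Solv Subgroup MulAction H91.AH H98

theorem inv_mem2 {G : Type} [Group G] [Finite G] {t y : G} (o : orderOf t = 2) (h : y ∈ zpowers t) :
    y = 1 ∨ y = t := by
  classical
  rw [mem_zpowers_iff_mem_range_orderOf, o] at h
  obtain ⟨i, hi, rfl⟩ := Finset.mem_image.1 h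
  have := Finset.mem_range.1 hi
  interval_cases i <;> simp

theorem syl2 {G : Type} [Group G] [Finite G] {D : Subgroup G} {t : G} (ht : t ∈ D) (o : orderOf t = 2)
    (h : ¬ 4 ∣ Nat.card (D ⊓ centralizer ({t} : Set G) : Subgroup G)) : IsSyl 2 (zpowers t) D := by
  have := Fact.mk Nat.prime_two
  have c : Nat.card (zpowers t) = 2 := by rw [Nat.card_zpowers, o]
  have l : zpowers t ≤ D ⊓ centralizer ({t} : Set G) := zpowers_le.2 ⟨ht, mem_cent.2 (Commute.refl t)⟩
  have e : D ⊓ normalizer (zpowers t : Set G) = D ⊓ centralizer ({t} : Set G) := by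
    refine le_antisymm (le_inf inf_le_left fun g hg => ?_) (inf_le_inf le_rfl ?_)
    · rcases inv_mem2 o (conj_mem_of_mem_normalizer hg.2 (mem_zpowers t)) with e | e
      · rw [conj_eq_one_iff.1 e, orderOf_one] at o; omega
      · exact mem_cent.2 (mul_inv_eq_iff_eq_mul.1 e)
    · rw [← centralizer_closure, ← zpowers_eq_closure]; exact centralizer_le_normalizer _
  refine isSyl_of_isSyl_normalizer (e ▸ isSyl_of_not_dvd_relIndex l
    (IsPGroup.of_card (n := 1) (by rw [c, pow_one])) fun d => h ?_)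
  rw [← ((zpowers t).subgroupOf _).card_mul_index, Nat.card_congr (subgroupOfEquivOfLe l).toEquiv, c]
  exact Nat.mul_dvd_mul_left 2 d

theorem jobC2 : JobC2 := by
  intro G _ _ _ nt h x hx
  have := Fact.mk Nat.prime_two
  have G2 : Nat.card G ≠ 2 := fun e => by
    obtain ⟨t, ht⟩ := exists_ne (1 : G)
    have := (isCyclic_of_prime_card e).isMulCommutative
    exact ht (isConj_one_left.1 (h t 1 (cc_congr fun g => iff_of_true (this.1.1 g t) (this.1.1 g 1))))
  have x1 : x ≠ 1 := fun e => G2 (by rw [← cc_one, ← e, hx])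
  have o : orderOf x = 2 := ((Nat.dvd_prime Nat.prime_two).1 (hx ▸ orderOf_dvd_cc (Commute.refl x))).resolve_left
    fun e => x1 (orderOf_eq_one_iff.1 e)
  have cx : centralizer ({x} : Set G) = zpowers x := (eq_of_le_of_card_ge
    (zpowers_le.2 (mem_cent.2 (Commute.refl x))) (by rw [Nat.card_zpowers, o]; exact hx.le)).symm
  have hP := syl2 (mem_top x) o (by rw [top_inf_eq]; change ¬ 4 ∣ cc x; omega)
  have hc := IsCyclic.isComplement' (P := hP.toSylowTop)
    ((Nat.minFac_eq_two_iff _).2 (o ▸ orderOf_dvd_natCard x)) (inferInstanceAs (IsCyclic (zpowers x)))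
  obtain ⟨O, _, hc⟩ : ∃ O : Subgroup G, O.Normal ∧ O.IsComplement' (zpowers x) := ⟨_, inferInstance, hc⟩
  have i2 : O.index = 2 := hc.symm.index_eq_card.trans ((Nat.card_zpowers x).trans o)
  have fx : ∀ u ∈ O, x * u = u * x → u = 1 := fun u hu e =>
    disjoint_def.1 hc.disjoint hu (show u ∈ zpowers x from cx ▸ mem_cent.2 e.symm)
  have xO : x ∉ O := fun k => x1 (fx x k rfl)
  have xx : x * x = 1 := by rw [← pow_two, ← o, pow_orderOf_eq_one]
  have f1 : MonoidHom.FixedPointFree (MulAut.conjNormal x : MulAut O) := fun u e =>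
    Subtype.ext (fx u u.2 (mul_inv_eq_iff_eq_mul.1 (congrArg Subtype.val e)))
  have f2 : Function.Involutive (MulAut.conjNormal x : MulAut O) := fun u => Subtype.ext (by
    change x * (x * u * x⁻¹) * x⁻¹ = u
    rw [show x * (x * u * x⁻¹) * x⁻¹ = x * x * u * (x * x)⁻¹ by group, xx]; group)
  have iv : ∀ u ∈ O, x * u * x⁻¹ = u⁻¹ := fun u hu =>
    congrArg Subtype.val (congrFun (f1.coe_eq_inv_of_involutive f2) ⟨u, hu⟩)
  have cm : ∀ u ∈ O, ∀ w ∈ O, u * w = w * u := fun u hu w hw =>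
    congrArg Subtype.val (f1.commute_all_of_involutive f2 ⟨u, hu⟩ ⟨w, hw⟩)
  have out : ∀ g, g ∉ O → ∀ u ∈ O, g * u * g⁻¹ = u⁻¹ := fun g hg u hu => by
    have k : g * x⁻¹ ∈ O := (mul_mem_iff_of_index_two i2).2 (iff_of_false hg fun k => xO (inv_mem_iff.1 k))
    rw [show g * u * g⁻¹ = g * x⁻¹ * (x * u * x⁻¹) * (g * x⁻¹)⁻¹ by group, iv u hu,
      cm _ k _ (inv_mem hu), mul_inv_cancel_right]
  have ni : ∀ u ∈ O, u = u⁻¹ → u = 1 := fun u hu e =>
    fx u hu (mul_inv_eq_iff_eq_mul.1 ((iv u hu).trans e.symm))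
  have cu : ∀ u ∈ O, u ≠ 1 → centralizer ({u} : Set G) = O := fun u hu u1 => le_antisymm
    (fun g hg => by_contra fun k => u1 (ni u hu (by
      rw [← out g k u hu, (mem_cent.1 hg).eq, mul_inv_cancel_right]))) fun g hg => mem_cent.2 (cm g hg u hu)
  have cO := O.card_mul_index
  obtain ⟨⟨u, hu⟩, u1⟩ := ne_bot_iff_exists_ne_one.1 (show O ≠ ⊥ from fun e => G2 (by
    rw [← cO, i2, e, card_bot]))
  replace u1 : u ≠ 1 := fun e => u1 (Subtype.ext e)
  have c3 : Nat.card O = 3 := Set.ncard_eq_three.2 ⟨1, u, u⁻¹, u1.symm, (inv_ne_one.2 u1).symm,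
    fun e => u1 (ni u hu e), Set.ext fun w => ⟨fun hw => by
      by_cases w1 : w = 1
      · exact .inl w1
      obtain ⟨g, rfl⟩ := isConj_iff.1 (h u w (by rw [cc, cc, cu u hu u1, cu w hw w1]))
      by_cases k : g ∈ O
      · exact .inr (.inl (by rw [cm g k u hu, mul_inv_cancel_right]))
      · exact .inr (.inr (out g k u hu)), by
      rintro (rfl | rfl | rfl)
      exacts [O.one_mem, hu, O.inv_mem hu]⟩⟩
  exact H59.Amb.perm_three (by rw [← cO, c3, i2]) o (x := u) fun e => u1 (fx u hu e.symm)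

theorem g8 {X : Type} [Group X] [Finite X] {s : X} (o : orderOf s = 4) (i : (zpowers s).index = 2)
    (na : ¬ ∀ a b : X, a * b = b * a) : ∃ a, (∀ y, ∃ i : ℕ, y = s ^ i ∨ y = s ^ i * a) ∧
      a * s * a⁻¹ = s⁻¹ ∧ a ∉ zpowers s ∧ (a * a = 1 ∨ a * a = s * s) := by
  classical
  have := normal_of_index_eq_two i
  obtain ⟨a, ha⟩ : ∃ a, a ∉ zpowers s := by
    by_contra! e
    rw [(eq_top_iff' _).2 e, index_top] at i
    omega
  have pw : ∀ y ∈ zpowers s, ∃ i < 4, s ^ i = y := fun y hy => by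
    rw [mem_zpowers_iff_mem_range_orderOf, o] at hy
    simpa using hy
  have m : ∀ y, ∃ i : ℕ, y = s ^ i ∨ y = s ^ i * a := fun y => by
    by_cases k : y ∈ zpowers s
    · obtain ⟨i, -, e⟩ := pw y k
      exact ⟨i, .inl e.symm⟩
    · obtain ⟨i, -, e⟩ := pw (y * a⁻¹) ((mul_mem_iff_of_index_two i).2
        (iff_of_false k fun k => ha (inv_mem_iff.1 k)))
      exact ⟨i, .inr (by rw [e, inv_mul_cancel_right])⟩
  have s4 : s ^ 4 = 1 := o ▸ pow_orderOf_eq_one s
  have s2 : s ^ 2 ≠ 1 := pow_ne_one_of_lt_orderOf (by omega) (by omega)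
  have s3 : s ^ 3 = s⁻¹ := eq_inv_of_mul_eq_one_left (by rw [← pow_succ, s4])
  have iv : a * s * a⁻¹ = s⁻¹ := by
    obtain ⟨j, hj, e⟩ := pw _ (this.conj_mem s (mem_zpowers s) a)
    have e2 : (s ^ j) ^ 2 ≠ 1 := by rwa [e, conj_pow, Ne, conj_eq_one_iff]
    interval_cases j
    · simp at e2
    · have c : Commute a s := mul_inv_eq_iff_eq_mul.1 (e.symm.trans (pow_one s))
      refine (na fun y w => ?_).elim
      have k : ∀ y, Commute y s ∧ Commute y a := fun y => by
        obtain ⟨i, rfl | rfl⟩ := m y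
        exacts [⟨Commute.pow_left rfl i, c.symm.pow_left i⟩,
          ⟨(Commute.pow_left rfl i).mul_left c, (c.symm.pow_left i).mul_left rfl⟩]
      obtain ⟨i, rfl | rfl⟩ := m w
      exacts [(k y).1.pow_right i, ((k y).1.pow_right i).mul_right (k y).2]
    · exact (e2 (by rw [← pow_mul, s4])).elim
    · rw [← e, s3]
  refine ⟨a, m, iv, ha, ?_⟩
  obtain ⟨j, hj, e⟩ := pw _ (mul_self_mem_of_index_two i a)
  have e2 : (s ^ j) ^ 2 = 1 := by
    have : a * s ^ j * a⁻¹ = s ^ j := by rw [e]; group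
    rw [← conj_pow, iv, inv_pow, inv_eq_iff_mul_eq_one] at this
    rwa [pow_two]
  interval_cases j
  · exact .inl (e.symm.trans (pow_zero s))
  · exact (s2 (by simpa using e2)).elim
  · exact .inr (e.symm.trans (pow_two s))
  · exact (s2 (by rwa [s3, inv_pow, inv_eq_one] at e2)).elim

theorem jobC4 : JobC4 := by
  intro rd G _ _ _ h x hx
  have := Fact.mk Nat.prime_two
  have cA : Nat.card (centralizer ({x} : Set G)) = 2 ^ 2 := hx
  obtain ⟨S, hS⟩ := (IsPGroup.of_card cA).exists_le_sylow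
  obtain ⟨n, hn⟩ := S.2.exists_card_eq
  have xA : x ∈ centralizer ({x} : Set G) := mem_cent.2 (Commute.refl x)
  have ab := IsPGroup.isMulCommutative_of_card_eq_prime_sq cA
  have cl := Cfsg.Agent.S0112.result n hn ((centralizer ({x} : Set G)).subgroupOf S)
    ((Nat.card_congr (subgroupOfEquivOfLe hS).toEquiv).trans cA) (le_antisymm
      (fun g hg => mem_cent.2 (by exact (congrArg Subtype.val (mem_centralizer_iff.1 hg ⟨x, hS xA⟩ xA)).symm))
      fun g hg a ha => Subtype.ext (congrArg Subtype.val (ab.1.1 ⟨a, ha⟩ ⟨g, hg⟩) :))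
  have bd : ∀ (y : G) (k : ℕ), orderOf y = 2 ^ (k + 1) → k + 1 + k ≤ n := fun y k e => by
    have := rd G h y
    rw [e, Nat.totient_prime_pow_succ Nat.prime_two, ← mul_assoc, ← pow_add] at this
    have := S.pow_dvd_card_of_pow_dvd_card (dvd_of_mul_right_dvd this)
    rwa [hn, Nat.pow_dvd_pow_iff_le_right one_lt_two] at this
  have n2 : 2 ≤ n := by
    have := card_dvd_of_le hS
    rwa [cA, hn, Nat.pow_dvd_pow_iff_le_right one_lt_two] at this
  rcases n2.eq_or_lt with rfl | n3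
  · refine .inl ⟨S, hn, fun y hy => ?_⟩
    obtain ⟨k, hk, e⟩ := (Nat.dvd_prime_pow Nat.prime_two).1 (hn ▸ (S : Subgroup G).orderOf_dvd_natCard hy)
    rw [← pow_two, ← orderOf_dvd_iff_pow_eq_one, e]
    interval_cases k
    exacts [by norm_num, by norm_num, absurd (bd y 1 e) (by omega)]
  obtain ⟨C, hC, hi⟩ := Cfsg.Agent.S0113.result n n3 hn cl
  obtain ⟨s, rfl⟩ := (C.isCyclic_iff_exists_zpowers_eq_top).1 hC
  obtain ⟨k, rfl⟩ : ∃ k, n = k + 2 := ⟨n - 2, by omega⟩
  have o : orderOf s = 2 ^ (k + 1) := by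
    have := (zpowers s).card_mul_index
    rw [hi, hn, Nat.card_zpowers, pow_succ 2 (k + 1)] at this
    omega
  obtain rfl : k = 1 := by have := bd s k (by rw [orderOf_coe, o]); omega
  obtain ⟨a, m, iv, na, sq⟩ := g8 o hi fun e => by
    have := card_le_of_le (show (S : Subgroup G) ≤ centralizer {x} from fun g hg =>
      mem_cent.2 (congrArg Subtype.val (e ⟨g, hg⟩ ⟨x, hS xA⟩)))
    omega
  refine .inr ⟨S, s, a, hn, fun y => ⟨fun hy => (m ⟨y, hy⟩).imp fun i e =>
    e.imp (congrArg Subtype.val) (congrArg Subtype.val), ?_⟩, by rw [orderOf_coe, o]; rfl,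
    congrArg Subtype.val iv, fun ⟨i, e⟩ => na ⟨i, Subtype.ext e⟩,
    sq.imp (congrArg Subtype.val) (congrArg Subtype.val)⟩
  rintro ⟨i, rfl | rfl⟩
  exacts [(s ^ i).2, (s ^ i * a).2]

theorem z5 : ∃ a : ZMod 5, a ≠ 0 ∧ a ^ 2 ≠ 1 ∧ ∀ n, a ^ n = 1 → 2 ∣ n :=
  ⟨2, by decide, by decide, fun n e => dvd_trans (by norm_num) ((show orderOf (2 : ZMod 5) = 4 from
    (orderOf_eq_iff (by norm_num)).2 (by decide)) ▸ orderOf_dvd_of_pow_eq_one e)⟩

theorem z7 : ∃ a : ZMod 7, a ≠ 0 ∧ a ^ 2 ≠ 1 ∧ ∀ n, a ^ n = 1 → 2 ∣ n :=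
  ⟨3, by decide, by decide, fun n e => dvd_trans (by norm_num) ((show orderOf (3 : ZMod 7) = 6 from
    (orderOf_eq_iff (by norm_num)).2 (by decide)) ▸ orderOf_dvd_of_pow_eq_one e)⟩

theorem jobKA : JobKA := by
  intro _ p _ H V _ _ _ _ _ _ h hp z t oz ot c h6
  have := Fact.mk Nat.prime_two
  refine eq_bot_iff.2 fun v hv => by_contra fun v0 => ?_
  obtain ⟨a, a0, a2, ao⟩ : ∃ a : ZMod p, a ≠ 0 ∧ a ^ 2 ≠ 1 ∧ ∀ n, a ^ n = 1 → 2 ∣ n := by
    rcases hp with rfl | rfl
    exacts [z5, z7]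
  obtain ⟨g, e, gz⟩ := h.ep hv a0
  have one : ∀ n, g ^ n • v = v → a ^ n = 1 := fun n k => by
    rw [pow_smul_eig e, ← sub_eq_zero] at k
    nth_rewrite 2 [← one_smul (ZMod p) v] at k
    rw [← sub_smul, smul_eq_zero, sub_eq_zero] at k
    exact k.resolve_right v0
  obtain ⟨⟨s, hs⟩, os⟩ := exists_prime_orderOf_dvd_card' (G := zpowers g) 2
    (Nat.card_zpowers g ▸ ao _ (one _ (by rw [pow_orderOf_eq_one, one_smul])))
  replace os : orderOf s = 2 := (orderOf_coe _).trans os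
  set D := centralizer ({z} : Set H)
  have gD : g ∈ D := mem_cent.2 gz
  have zE : zpowers z ≤ D ⊓ centralizer {t} := zpowers_le.2 ⟨mem_cent.2 (Commute.refl z), mem_cent.2 c⟩
  have d3 := card_dvd_of_le zE
  rw [Nat.card_zpowers, oz] at d3
  have pos : 0 < Nat.card (D ⊓ centralizer ({t} : Set H) : Subgroup H) := Nat.card_pos
  obtain ⟨k, hk, l⟩ := (syl2 (D := D) (mem_cent.2 c.symm) ot (by omega)).exists_cj_le
    (IsPGroup.of_card (n := 1) (G := zpowers s) (by rw [Nat.card_zpowers]; exact os))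
    (zpowers_le.2 (zpowers_le.2 gD hs))
  have e1 : k * s * k⁻¹ = t := (inv_mem2 ot (l (conj_mem_cj (mem_zpowers s)))).resolve_left fun e => by
    rw [conj_eq_one_iff.1 e] at os
    simp at os
  have gE : k * g * k⁻¹ ∈ D ⊓ centralizer {t} := ⟨D.mul_mem (D.mul_mem hk gD) (D.inv_mem hk), mem_cent.2 (by
    obtain ⟨i, rfl⟩ := mem_zpowers_iff.1 hs
    rw [← e1]
    exact (Commute.zpow_right rfl i).map (MulAut.conj k))⟩
  have i2 : (zpowers z).relIndex (D ⊓ centralizer {t}) ∣ 2 := by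
    have := ((zpowers z).subgroupOf (D ⊓ centralizer {t})).card_mul_index
    rw [Nat.card_congr (subgroupOfEquivOfLe zE).toEquiv, Nat.card_zpowers, oz] at this
    rw [relIndex]
    generalize ((zpowers z).subgroupOf _).index = r at this
    obtain rfl | rfl : r = 1 ∨ r = 2 := by omega
    all_goals norm_num
  have nz : D ≤ normalizer (zpowers z : Set H) := by
    rw [zpowers_eq_closure]; exact (centralizer_closure _).ge.trans (centralizer_le_normalizer _)
  have := normal_subgroupOf_of_le_normalizer (inf_le_left.trans nz : D ⊓ centralizer {t} ≤ _)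
  obtain ⟨j, hj⟩ := i2
  have q : (k * g * k⁻¹) ^ 2 ∈ zpowers z := by
    rw [hj, pow_mul]
    exact pow_mem (((zpowers z).subgroupOf _).pow_index_mem ⟨_, gE⟩) j
  have q2 := conj_mem_of_mem_normalizer' (nz hk) q
  rw [conj_pow, mul_assoc, inv_mul_cancel_right, inv_mul_cancel_left] at q2
  exact a2 (one 2 ((zpowers_le.2 (show z ∈ stabilizer H v from hv) :) q2))

end H24.AH
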