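import Cfsg.Agent.H91.AHSpec

/-! Tower AH, slot PL. -/

set_option autoImplicit false

namespace H24.AH

open H91.AH Finset

theorem smooth (F : Finset ℕ) (h : ∀ c ∈ F, ∀ q : ℕ, q.Prime → q ∣ c → q ≤ 7) :
    ∑ c ∈ F, (1 / c : ℚ) ≤ 35 / 8 := by
  let f : ℕ →* ℝ := ⟨⟨fun n => (n : ℝ)⁻¹, by simp⟩, fun a b => by simp [mul_comm]⟩
  have k := (EulerProduct.summable_and_hasSum_factoredNumbers_prod_filter_prime_geometric (f := f)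
    (fun {p} hp => by
      change ‖(p : ℝ)⁻¹‖ < 1
      rw [norm_inv, Real.norm_natCast]
      exact inv_lt_one_of_one_lt₀ (by exact_mod_cast hp.one_lt)) (range 8)).2
  have e : (range 8).filter Nat.Prime = {2, 3, 5, 7} := by decide
  have m : ∀ c ∈ F, c ∈ Nat.factoredNumbers (range 8) := fun c hc =>
    Nat.mem_factoredNumbers'.2 fun p hp d => mem_range.2 (Nat.lt_succ_of_le (h c hc p hp d))
  have s := sum_le_hasSum (F.subtype (· ∈ Nat.factoredNumbers (range 8)))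
    (fun n _ => (by positivity : (0 : ℝ) ≤ ((n : ℕ) : ℝ)⁻¹)) k
  replace s := (sum_subtype_of_mem (fun n : ℕ => (n : ℝ)⁻¹) m).ge.trans s
  rw [e] at s
  have : ((∑ c ∈ F, (1 / c : ℚ) : ℚ) : ℝ) ≤ ((35 / 8 : ℚ) : ℝ) := by
    push_cast
    simp only [one_div]
    refine s.trans (le_of_eq ?_)
    simp [f]
    norm_num
  exact_mod_cast this

/-- The upper bound for a predicate. -/
def ub (ok : ℕ → Prop) [DecidablePred ok] : ℚ :=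
  35 / 8 - ∑ c ∈ (range 2001).filter (fun c => c ∣ 210 ^ 11 ∧ ¬ ok c), (1 / c : ℚ)

theorem le_ub (ok : ℕ → Prop) [DecidablePred ok] (F : Finset ℕ)
    (h : ∀ c ∈ F, ∀ q : ℕ, q.Prime → q ∣ c → q ≤ 7) (k : ∀ c ∈ F, ok c) :
    ∑ c ∈ F, (1 / c : ℚ) ≤ ub ok := by
  rw [ub, le_sub_iff_add_le, ← sum_union (disjoint_left.2 fun c hc e => (mem_filter.1 e).2.2 (k c hc))]
  refine smooth _ fun c hc q hq d => (mem_union.1 hc).elim (fun e => h c e q hq d) fun e => ?_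
  have := hq.dvd_of_dvd_pow (d.trans (mem_filter.1 e).2.1)
  rw [show 210 = 2 * 3 * 5 * 7 from rfl, hq.dvd_mul, hq.dvd_mul, hq.dvd_mul] at this
  rcases this with ((e | e) | e) | e <;> exact (Nat.le_of_dvd (by norm_num) e).trans (by norm_num)

abbrev o0 (c : ℕ) : Prop :=
  c ≠ 1 ∧ c ≠ 2 ∧ c ≠ 4 ∧ (5 ∣ c → 25 ∣ c ∨ 2 ∣ c) ∧ (7 ∣ c → 49 ∣ c ∨ 3 ∣ c)

theorem b1 : ub (fun c => o0 c ∧ c ≠ 8 ∧ 4 ∣ c) < 3 / 4 := by decide +kernel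
theorem b2 : ub (fun c => o0 c ∧ (3 ∣ c → c = 3)) + 1 / 60 < 1 := by decide +kernel
theorem b3 : ub (fun c => o0 c ∧ c ≠ 3 ∧ ¬ 5 ∣ c ∧ ¬ 7 ∣ c) < 1 := by decide +kernel
theorem b4 : ub (fun c => o0 c ∧ c ≠ 3 ∧ c ≠ 6 ∧ (7 ∣ c → 49 ∣ c) ∧ (5 ∣ c → 25 ∣ c)) < 1 := by
  decide +kernel
theorem b5 : ub (fun c => o0 c ∧ c ≠ 3 ∧ c ≠ 6 ∧ (c ≠ 9 ∧ c ≠ 27) ∧ (5 ∣ c → 25 ∣ c)) < 1 := by
  decide +kernel
theorem b6 : ub (fun c => o0 c ∧ c ≠ 3 ∧ c ≠ 6 ∧ (7 ∣ c → 49 ∣ c) ∧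
    c ≠ 8 ∧ c ≠ 16 ∧ c ≠ 10 ∧ c ≠ 25) < 1 := by decide +kernel
theorem b7 : ub (fun c => o0 c ∧ c ≠ 3 ∧ c ≠ 6 ∧ (c ≠ 9 ∧ c ≠ 27) ∧
    c ≠ 8 ∧ c ≠ 16 ∧ c ≠ 10 ∧ c ≠ 25) < 1 := by decide +kernel
theorem b8 : ∀ n ∈ range 60, n ≠ 0 →
    ∑ c ∈ (range 60).filter (fun c => c ∣ n ∧ o0 c), (1 / c : ℚ) < 1 := by decide +kernel

theorem jobPL : JobPL := by
  intro F h h1 h2 h4 hP
  have ne : ∀ {a c : ℕ}, a ∉ F → c ∈ F → c ≠ a := fun ha hc e => ha (e ▸ hc)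
  have o : ∀ c ∈ F, o0 c := fun c hc => ⟨ne h1 hc, ne h2 hc, ne h4 hc, (hP c hc).1, (hP c hc).2⟩
  have s := fun c hc => (h c hc).2
  refine ⟨fun h8 => (le_ub _ _ (fun c hc => s c (mem_filter.1 hc).1) fun c hc =>
    ⟨o c (mem_filter.1 hc).1, ne h8 (mem_filter.1 hc).1, (mem_filter.1 hc).2⟩).trans_lt b1, ?_⟩
  rintro (⟨n, hn⟩ | ⟨h3, k⟩ | ⟨h3, h6, k | ⟨k, k'⟩, l | ⟨l1, l2, l3, l4⟩⟩)
  · have e := le_ub (fun c => o0 c ∧ (3 ∣ c → c = 3)) (F.erase n) (fun c hc => s c (mem_of_mem_erase hc))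
      fun c hc => ⟨o c (mem_of_mem_erase hc), fun d =>
        ((hn c (mem_of_mem_erase hc)).2 d).resolve_right (ne_of_mem_erase hc)⟩
    have := b2
    by_cases m : n ∈ F
    · by_cases l : n < 60
      · refine (sum_le_sum_of_subset_of_nonneg (fun c hc => mem_filter.2 ⟨mem_range.2 ((Nat.le_of_dvd
          (Nat.pos_of_ne_zero (h n m).1) (hn c hc).1).trans_lt l), (hn c hc).1, o c hc⟩)
          fun _ _ _ => by positivity).trans_lt (b8 n (mem_range.2 l) (h n m).1)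
      · have : (1 / n : ℚ) ≤ 1 / 60 :=
          one_div_le_one_div_of_le (by norm_num) (by exact_mod_cast not_lt.1 l)
        rw [← add_sum_erase F _ m]
        linarith
    · rw [erase_eq_of_notMem m] at e
      linarith
  · exact (le_ub _ F s fun c hc => ⟨o c hc, ne h3 hc, k c hc⟩).trans_lt b3
  · exact (le_ub _ F s fun c hc => ⟨o c hc, ne h3 hc, ne h6 hc, k c hc, l c hc⟩).trans_lt b4
  · exact (le_ub _ F s fun c hc => ⟨o c hc, ne h3 hc, ne h6 hc, k c hc, ne l1 hc, ne l2 hc, ne l3 hc,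
      ne l4 hc⟩).trans_lt b6
  · exact (le_ub _ F s fun c hc => ⟨o c hc, ne h3 hc, ne h6 hc, ⟨ne k hc, ne k' hc⟩, l c hc⟩).trans_lt b5
  · exact (le_ub _ F s fun c hc => ⟨o c hc, ne h3 hc, ne h6 hc, ⟨ne k hc, ne k' hc⟩, ne l1 hc, ne l2 hc,
      ne l3 hc, ne l4 hc⟩).trans_lt b7

end H24.AH
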