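import Cfsg.Agent.H48.DP3Kit

set_option autoImplicit false

namespace H24.DP3

open Subgroup Cfsg H98 H97 H48.DP
open scoped commutatorElement

universe u

variable {G : Type*} [Group G]

theorem relIndex_le_of_dec [Finite G] {C W Q : Subgroup G} (hWQ : W ≤ Q)
    (h : ∀ a ∈ Q, ∃ n ∈ W, n * a ∈ C) : C.relIndex Q ≤ C.relIndex W := by
  refine Nat.card_le_card_of_surjective (quotientSubgroupOfEmbeddingOfLE C hWQ) fun q => ?_
  obtain ⟨a, rfl⟩ := QuotientGroup.mk_surjective q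
  obtain ⟨n, hn, e⟩ := h a a.2
  refine ⟨QuotientGroup.mk ⟨n⁻¹, inv_mem hn⟩, ?_⟩
  rw [quotientSubgroupOfEmbeddingOfLE_apply_mk, QuotientGroup.eq, mem_subgroupOf]
  simpa using e

theorem ord_three {y : G} {a : ℕ} (h : orderOf y = 3 ^ (a + 2)) : orderOf (y ^ 3 ^ (a + 1)) = 3 := by
  rw [orderOf_pow_of_dvd (by positivity) (h ▸ pow_dvd_pow 3 (by omega)), h, pow_succ,
    Nat.mul_div_cancel_left _ (by positivity)]

theorem jobC2 : JobC2.{u} := by
  intro m9 G _ _ T P R L y g a hA hL hc hX hy hyN hxP cp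
  have hx := ord_three hy
  generalize hxe : y ^ 3 ^ (a + 1) = x at hx hxP cp
  have h := hL.h1
  have PL := h.leL
  have key : ∀ A : Subgroup G, A ≤ O2 P → ¬ A ≤ O2 L → ⁅Zq L, A⁆ = ⁅Zq L, O2 P⁆ := fun A h1 h2 => by
    obtain ⟨b, hb, hb'⟩ := SetLike.not_le_iff_exists.1 h2
    exact le_antisymm (commutator_mono le_rfl h1)
      (cp.com b (h1 hb) hb' ▸ commutator_mono le_rfl (zpowers_le.2 hb))
  have ne : ⁅Zq L, O2 P⁆ ≠ ⊥ := fun e => h.not_le (cp.nc ▸ le_inf ((pCoreOf_le P).trans PL)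
    (le_centralizer_iff.1 (commutator_eq_bot_iff_le_centralizer.1 e)))
  have k1 := key _ cp.le1 cp.nle
  have k2 : cj g ⁅Zq L, cj g⁻¹ (Zq L)⁆ = ⁅Zq L, O2 P⁆ := by
    rw [cj_commutator, cj_cj_inv, commutator_comm, k1]
  have k3 := key _ cp.le2 fun e => ne (by
    rw [← k2, commutator_eq_bot_iff_le_centralizer.2
      (le_centralizer_iff.1 (e.trans (le_centralizer_oZ _))), cj_bot])
  have hg : g ∈ No ⁅Zq L, O2 P⁆ := H98.cj_eq_self_iff.1 (by rwa [k3] at k2)
  have RW : ⁅Zq L, O2 P⁆ ≤ Zq L :=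
    commutator_le_left' (((pCoreOf_le P).trans PL).trans (le_No_Zq L))
  have PM : P ≤ No ⁅Zq L, O2 P⁆ :=
    le_normalizer_commutator (PL.trans (le_No_Zq L)) (self_le_normalizer_pCoreOf P)
  have TM := h.s3.le.trans PM
  have e : cj g (O2 P) = O2 P := by
    rcases hA.str _ TM (o2_No_ne_bot ((isPGroup_Zq L).to_le RW) ne) with c | ⟨y', a', c⟩ |
      ⟨P', R', L', c, -, c2⟩
    · exact absurd (PM.trans c) h.s3.nn
    · have hs := hA.isSyl TM
      exact (cj_pCoreOf g P).trans ((c.o2_eq hs (h.s3.cj g) (cj_le_of_le_of_mem PM hg)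
        (hs.cj_of_mem hg)).trans (c.o2_eq hs h.s3 PM hs).symm)
    · have : L' = L := by
        rw [c.eq, hL.eq]
        rcases hX _ c.h1.s3 with e1 | e1 <;> rcases hX _ c.h2.s3 with e2 | e2
        · exact absurd (e1.trans e2.symm) c.ne
        · rw [e1, e2]
        · rw [e1, e2, sup_comm]
        · exact absurd (e1.trans e2.symm) c.ne
      subst this
      refine absurd ?_ cp.nle
      rw [cj_eq_self (normalizer_le_normalizer_oZ _ (normalizer_le_normalizer_pCoreOf _ (c2 hg)))]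
      exact Zq_le _
  obtain ⟨b, hb, hb'⟩ := SetLike.not_le_iff_exists.1 cp.nle
  have bL : b ∈ L := PL (pCoreOf_le P (cp.le1 hb))
  have k4 : ⁅O2 L, cj g (Zq L)⁆ ≤ Zq L := by
    refine (commutator_mono (h.le.trans e.ge) le_rfl).trans ?_
    rw [← cj_commutator, commutator_comm, cj_eq_self hg]
    exact RW
  have k5 : x ∈ stab (O2 L) (Zq L) := hL.three_mem
    (le_normalizer_stab (self_le_normalizer_pCoreOf L) (le_No_Zq L))
    ⟨le_No_Zq L bL, fun c hc => k4 (commutator_mem_commutator hc hb)⟩ bL hb' (PL hxP) hx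
  have k6 : (C1 x).relIndex (O2 L) ≤ 4 := by
    refine (relIndex_le_of_dec (Zq_le L) fun b hb => cop_dec (isPGroup_Zq L) hx k5 hb).trans ?_
    rw [← cp.i4]
    exact relIndex_le_of_le_left (fun z hz => mem_C1.2 (mem_Ce.1 cp.xc z hz).symm)
      (relIndex_ne_zero' _ _)
  have k7 : (C1 x).relIndex (O2 P) = (C1 x).relIndex (O2 L) * 4 := by
    have : C1 x ⊓ O2 P = C1 x ⊓ O2 L := le_antisymm (fun b hb => ⟨hb.1, h.fpf x hxP hx b hb.2 (by
      rw [commutatorElement_eq_one_iff_mul_comm.2 (mem_C1.1 hb.1).symm]; exact one_mem _)⟩)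
      (inf_le_inf_left _ h.le)
    rw [← inf_relIndex_right, this, ← h.idx, ← inf_relIndex_right (C1 x) (O2 L),
      relIndex_mul_relIndex _ _ _ inf_le_right h.le]
  have := m9 G (O2 P) y a (isPGroup_pCoreOf P) hy hyN
  rw [hxe, k7] at this
  omega

end H24.DP3
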