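import Cfsg.Agent.H70.R3Spec

/-! The index two subgroup of the one-dimensional affine group: its `p`-regular classes. -/

set_option autoImplicit false

namespace H24.R3

open Cfsg H34.TL Subgroup

universe u

theorem jobConv : H70.R3.JobConv.{u} := by
  intro G _ _ p hp f hf hp2 hG
  have h0 : ∀ g : G, ∃ a : (ZMod p)ˣ, ∃ b : ZMod p, ∀ x,
      (f g : Equiv.Perm (ZMod p)) x = (a : ZMod p) * x + b := fun g => (f g).2
  choose a b hab using h0
  have hm : ∀ g h : G, ∀ x, (a (g * h) : ZMod p) * x + b (g * h) =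
      a g * (a h * x + b h) + b g := fun g h x => by
    rw [← hab, ← hab, ← hab, map_mul]; rfl
  have ham : ∀ g h : G, a (g * h) = a g * a h := fun g h => Units.ext (by
    have h1 := hm g h 0
    have h2 := hm g h 1
    rw [Units.val_mul]
    linear_combination h2 - h1)
  have ext : ∀ g h : G, (∀ x, (a g : ZMod p) * x + b g = a h * x + b h) → g = h := fun g h e =>
    hf (Subtype.ext (Equiv.ext fun x => by rw [hab, hab, e]))
  let μ : G →* (ZMod p)ˣ := MonoidHom.mk' a ham
  have hμ : ∀ g, μ g = a g := fun _ => rfl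
  have hinj : Function.Injective fun k : μ.ker => b k := fun k l e => Subtype.ext
    (ext _ _ fun x => by
      rw [← hμ, ← hμ, MonoidHom.mem_ker.1 k.2, MonoidHom.mem_ker.1 l.2]
      exact congrArg _ e)
  have hle : Nat.card μ.ker ≤ p := by
    simpa using Nat.card_le_card_of_injective _ hinj
  have hmul : Nat.card μ.ker * Nat.card μ.range = Nat.card G := by
    rw [← index_ker, card_mul_index]
  have hr : Nat.card μ.range ∣ p - 1 := by
    have := card_subgroup_dvd_card μ.range
    rwa [Nat.card_eq_fintype_card (α := (ZMod p)ˣ), ZMod.card_units] at this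
  have h1 := hp.out.one_lt
  have hpG : p ∣ Nat.card G := by
    rcases (Nat.Prime.dvd_mul hp.out).1 (hG ▸ dvd_mul_right p (p - 1)) with e | e
    · exact absurd ((Nat.prime_dvd_prime_iff_eq hp.out Nat.prime_two).1 e) hp2
    · exact e
  have hK : Nat.card μ.ker = p := by
    rcases (Nat.Prime.dvd_mul hp.out).1 (hmul ▸ hpG) with e | e
    · exact le_antisymm hle (Nat.le_of_dvd Nat.card_pos e)
    · have := Nat.le_of_dvd (by omega) (e.trans hr)
      omega
  have hsurj : Function.Surjective fun k : μ.ker => b k :=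
    ((Nat.bijective_iff_injective_and_card _).2 ⟨hinj, by simpa using hK⟩).2
  have hR : 2 * Nat.card μ.range = p - 1 := by
    rw [← hmul, hK] at hG
    exact Nat.eq_of_mul_eq_mul_left hp.out.pos (by rw [← hG]; ring)
  have one : ∀ g : G, μ g = 1 → ¬ p ∣ orderOf g → g = 1 := fun g h2 h3 => by
    have h4 : orderOf g ∣ p := hK ▸ μ.ker.orderOf_dvd_natCard h2
    rcases (Nat.dvd_prime hp.out).1 h4 with e | e
    · exact orderOf_eq_one_iff.1 e
    · exact absurd (e ▸ dvd_rfl) h3
  have conj : ∀ g h : G, μ g = μ h → ¬ p ∣ orderOf g → ¬ p ∣ orderOf h → IsConj g h := by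
    intro g h e h2 h3
    by_cases h4 : μ g = 1
    · rw [one g h4 h2, one h (e ▸ h4) h3]
    have h5 : (1 : ZMod p) - a g ≠ 0 := fun e' => h4 (Units.ext (sub_eq_zero.1 e').symm)
    obtain ⟨t, ht⟩ := hsurj ((b h - b g) / (1 - a g))
    have h6 : a t = 1 := MonoidHom.mem_ker.1 t.2
    have h7 : a h = a g := e.symm
    have h8 : b t * (1 - a g) = b h - b g := by
      rw [show b t = _ from ht, div_mul_cancel₀ _ h5]
    refine isConj_iff.2 ⟨t, mul_inv_eq_iff_eq_mul.2 (ext _ _ fun x => ?_)⟩
    rw [hm, hm, h6, h7, Units.val_one]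
    linear_combination h8
  rw [← hR]
  refine Nat.mul_le_mul_left 2 (Nat.card_le_card_of_injective
    (fun c => (⟨μ c.2.choose, _, rfl⟩ : μ.range)) fun c d e => Subtype.ext ?_)
  rw [← c.2.choose_spec.1, ← d.2.choose_spec.1]
  exact ConjClasses.mk_eq_mk_iff_isConj.2
    (conj _ _ (congrArg Subtype.val e) c.2.choose_spec.2 d.2.choose_spec.2)

end H24.R3
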